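import Groth.Prelude.Def_FEt
import Mathlib.Topology.KrullDimension
import Mathlib.Topology.Sober
import Mathlib.Topology.Irreducible
import Mathlib.Order.Hom.WithTopBot
import Mathlib.RingTheory.Spectrum.Prime.Topology
import Mathlib.RingTheory.KrullDimension.Basic

/-!
Dimension and irreducible components of closed subsets of the punctured spectrum of a local ring.
-/

set_option autoImplicit false
universe u v

namespace Groth.Agent.Sga2lef.H84.PunctDim

open PrimeSpectrum IsLocalRing Topology

section Emb

variable {R : Type u} [CommRing R]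

/-- For a sober space embedded in a prime spectrum, the Krull dimension is that of the poset of its
points. -/
theorem topologicalKrullDim_eq_of_isEmbedding {T : Type v} [TopologicalSpace T] [QuasiSober T]
    (f : T → PrimeSpectrum R) (hf : IsEmbedding f) :
    topologicalKrullDim T = Order.krullDim (Set.range f) := by
  have : T0Space T := hf.t0Space
  let := specializationOrder T
  let e : (TopologicalSpace.IrreducibleCloseds T) ≃o (Set.range f)ᵒᵈ :=
    (irreducibleSetEquivPoints (α := T)).trans
      { toEquiv := (Equiv.ofInjective f hf.injective).trans OrderDual.toDual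
        map_rel_iff' := by
          intro a b
          change f b ≤ f a ↔ b ⤳ a
          rw [le_iff_specializes, hf.isInducing.specializes_iff] }
  rw [topologicalKrullDim, Order.krullDim_eq_of_orderIso e, Order.krullDim_orderDual]

end Emb

section Local

variable (R : Type u) [CommRing R] [IsLocalRing R]

instance : QuasiSober ↥(FEt.puncturedSpec R) :=
  IsOpenEmbedding.quasiSober (FEt.puncturedSpec R).isOpenEmbedding'

variable {R}

/-- The underlying prime of a point of the punctured spectrum. -/
def pt (x : ↥(FEt.puncturedSpec R)) : PrimeSpectrum R := x.1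

theorem pt_ne (x : ↥(FEt.puncturedSpec R)) : pt x ≠ closedPoint R := x.2

/-- The point of the punctured spectrum attached to a non-maximal prime. -/
def mkPt (x : PrimeSpectrum R) (hx : x ≠ closedPoint R) : ↥(FEt.puncturedSpec R) := ⟨x, hx⟩

@[simp] theorem pt_mkPt (x : PrimeSpectrum R) (hx : x ≠ closedPoint R) : pt (mkPt x hx) = x := rfl

theorem pt_injective : Function.Injective (pt (R := R)) := Subtype.val_injective

theorem isOpenEmbedding_pt : IsOpenEmbedding (pt (R := R)) :=
  (FEt.puncturedSpec R).isOpenEmbedding'

theorem range_pt : Set.range (pt (R := R)) = {closedPoint R}ᶜ := by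
  ext x
  constructor
  · rintro ⟨y, rfl⟩
    exact pt_ne y
  · intro h
    exact ⟨mkPt x h, rfl⟩

theorem specializes_iff (x y : ↥(FEt.puncturedSpec R)) : x ⤳ y ↔ pt x ≤ pt y := by
  rw [le_iff_specializes, isOpenEmbedding_pt.isInducing.specializes_iff]

theorem mem_closure_iff_le (x y : ↥(FEt.puncturedSpec R)) :
    y ∈ closure ({x} : Set ↥(FEt.puncturedSpec R)) ↔ pt x ≤ pt y := by
  rw [← specializes_iff_mem_closure, specializes_iff]

theorem le_closedPoint (x : PrimeSpectrum R) : x ≤ closedPoint R :=
  IsLocalRing.le_maximalIdeal x.2.ne_top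

theorem closedPoint_mem_of_isClosed {C : Set (PrimeSpectrum R)} (hC : IsClosed C)
    (hne : C.Nonempty) : closedPoint R ∈ C := by
  obtain ⟨x, hx⟩ := hne
  exact (specializes_closedPoint x).mem_closed hC hx

/-- The dimension of a nonempty closed subset `C` of `Spec R` (with `R` local) having a point in the
punctured spectrum is one more than the dimension of its trace on the punctured spectrum. -/
theorem topologicalKrullDim_eq_add_one {C : Set (PrimeSpectrum R)} (hC : IsClosed C)
    (Z : Set ↥(FEt.puncturedSpec R)) (hZ : Z = pt ⁻¹' C) (hne : Z.Nonempty) :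
    topologicalKrullDim C = topologicalKrullDim Z + 1 := by
  classical
  have hZc : IsClosed Z := by
    rw [hZ]
    exact hC.preimage isOpenEmbedding_pt.continuous
  obtain ⟨z, hz⟩ := hne
  have hzC : ∀ x : ↥(FEt.puncturedSpec R), x ∈ Z ↔ pt x ∈ C := by
    intro x; rw [hZ]; rfl
  have hcC : closedPoint R ∈ C := closedPoint_mem_of_isClosed hC ⟨pt z, (hzC z).1 hz⟩
  have : QuasiSober C := hC.isClosedEmbedding_subtypeVal.quasiSober
  have : QuasiSober Z := hZc.isClosedEmbedding_subtypeVal.quasiSober
  have h1 := topologicalKrullDim_eq_of_isEmbedding (R := R) (T := C) Subtype.val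
    IsEmbedding.subtypeVal
  have h2 := topologicalKrullDim_eq_of_isEmbedding (R := R) (T := Z)
    (fun x : Z => pt x.1)
    (isOpenEmbedding_pt.isEmbedding.comp IsEmbedding.subtypeVal)
  rw [h1, h2]
  rw [Subtype.range_coe]
  let : OrderTop C := { top := ⟨closedPoint R, hcC⟩, le_top := fun x => le_closedPoint x.1 }
  have hNe : Nonempty {a : C // a ≠ ⊤} :=
    ⟨⟨⟨pt z, (hzC z).1 hz⟩, fun h => pt_ne z (congrArg Subtype.val h)⟩⟩
  rw [← Order.krullDim_eq_of_orderIso (WithTop.subtypeOrderIso (α := C)), Order.krullDim_WithTop]
  congr 1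
  refine Order.krullDim_eq_of_orderIso ?_
  refine
    { toFun := fun a => ⟨a.1.1, ⟨⟨mkPt a.1.1 fun h => a.2 (Subtype.ext h), (hzC _).2 a.1.2⟩, rfl⟩⟩
      invFun := fun a => ⟨⟨a.1, ?_⟩, ?_⟩
      left_inv := fun a => rfl
      right_inv := fun a => rfl
      map_rel_iff' := ?_ }
  · obtain ⟨_, ⟨w, rfl⟩⟩ := a
    exact (hzC _).1 w.2
  · intro h
    have h' : a.1 = closedPoint R := congrArg Subtype.val h
    obtain ⟨_, ⟨w, rfl⟩⟩ := a
    exact pt_ne w.1 h'
  · intro a b
    exact Iff.rfl

/-- The dimension of `{closed point}`. -/
theorem topologicalKrullDim_singleton_closedPoint :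
    topologicalKrullDim ({closedPoint R} : Set (PrimeSpectrum R)) = 0 := by
  have h0 : Subsingleton (({closedPoint R} : Set (PrimeSpectrum R))) :=
    Set.subsingleton_coe _ |>.2 Set.subsingleton_singleton
  have hq : QuasiSober (({closedPoint R} : Set (PrimeSpectrum R))) :=
    (isClosed_singleton_closedPoint (R := R)).isClosedEmbedding_subtypeVal.quasiSober
  rw [topologicalKrullDim_eq_of_isEmbedding (R := R) Subtype.val IsEmbedding.subtypeVal,
    Subtype.range_coe]
  have : Unique (({closedPoint R} : Set (PrimeSpectrum R))) :=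
    { default := ⟨closedPoint R, rfl⟩
      uniq := fun a => Subsingleton.elim _ _ }
  exact Order.krullDim_eq_zero

/-- Irreducible components of the punctured spectrum of a local ring. -/
theorem mem_irreducibleComponents_puncturedSpec_iff (Z : Set ↥(FEt.puncturedSpec R)) :
    Z ∈ irreducibleComponents ↥(FEt.puncturedSpec R) ↔
      ∃ q : PrimeSpectrum R, q.asIdeal ∈ minimalPrimes R ∧ q ≠ closedPoint R ∧
        Z = pt ⁻¹' (zeroLocus (q.asIdeal : Set R)) := by
  have hcl : ∀ x : ↥(FEt.puncturedSpec R),
      closure ({x} : Set ↥(FEt.puncturedSpec R)) = pt ⁻¹' (zeroLocus ((pt x).asIdeal : Set R)) := by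
    intro x
    ext y
    rw [mem_closure_iff_le]
    rfl
  constructor
  · intro hZ
    have hirr : IsIrreducible Z := hZ.1
    have hclosed : IsClosed Z := isClosed_of_mem_irreducibleComponents Z hZ
    obtain ⟨y, hy⟩ := QuasiSober.sober hirr hclosed
    refine ⟨pt y, ?_, pt_ne y, ?_⟩
    · rw [← stableUnderGeneralization_singleton]
      intro a b hab ha
      rw [Set.mem_singleton_iff] at ha ⊢
      subst ha
      have hba : b ≤ pt y := (le_iff_specializes _ _).2 hab
      have hb : b ≠ closedPoint R := by
        intro h
        subst h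
        exact pt_ne y (le_antisymm (le_closedPoint _) hba)
      have h1 : Z ⊆ closure ({mkPt b hb} : Set ↥(FEt.puncturedSpec R)) := by
        rw [← hy.def]
        refine closure_minimal ?_ isClosed_closure
        rw [Set.singleton_subset_iff, mem_closure_iff_le]
        exact hba
      have h2 := hZ.2 (isIrreducible_singleton.closure :
        IsIrreducible (closure ({mkPt b hb} : Set _))) h1
      have h3 : mkPt b hb ∈ Z := h2 (subset_closure rfl)
      rw [← hy.def, mem_closure_iff_le] at h3
      exact le_antisymm hba h3
    · rw [← hcl, hy.def]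
  · rintro ⟨q, hq, hqm, hZ⟩
    have hZy : Z = closure {mkPt q hqm} := by
      rw [hZ, hcl]
      rfl
    rw [hZy]
    refine ⟨isIrreducible_singleton.closure, ?_⟩
    intro S hS hle
    have hS' : IsIrreducible (closure S) := IsIrreducible.closure hS
    obtain ⟨y', hy'⟩ := QuasiSober.sober hS' isClosed_closure
    have h1 : mkPt q hqm ∈ closure S := subset_closure (hle (subset_closure rfl))
    rw [← hy'.def, mem_closure_iff_le] at h1
    have h2 : pt y' = q := by
      have := stableUnderGeneralization_singleton.2 hq
      have h3 : pt y' ∈ ({q} : Set (PrimeSpectrum R)) :=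
        this ((le_iff_specializes _ _).1 h1) rfl
      exact h3
    have h3 : y' = mkPt q hqm := pt_injective h2
    rw [← h3, hy'.def]
    exact subset_closure

end Local

end Groth.Agent.Sga2lef.H84.PunctDim
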